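import Groth.Prelude.Def_ArSurf
import Groth.Agent.CurvesC.CurveNum
import Groth.Agent.CurvesC.ReducedConnField

/-!
# The field of constants of an integral proper scheme over a field

`Y` integral (or: reduced and connected) and proper over a field `k`: `κ = H^0(Y, O_Y)` is a field, and
`[κ : k] = dim_k H^0(Y, O_Y)` divides `dim_k H^i(Y, M)` for every `O_Y`-module `M` and every `i`
(`finrank`, so also in the infinite-dimensional case); hence it divides every `χ` and every `curveDeg`.
-/

set_option autoImplicit false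
universe u
open CategoryTheory CategoryTheory.Limits AlgebraicGeometry TopologicalSpace Opposite

namespace Groth.Agent.Models.H45.FieldConst

open Groth.Agent.CurvesC Groth.Agent.CurvesC.CurveNum

variable (k : Type u) [Field k] (Y : Scheme.{u}) [Y.Over (Spec (CommRingCat.of k))]

attribute [local instance] topMod

/-- The global functions on a reduced connected scheme, proper over a field, form a field. -/
theorem isField_top [IsProper (Y ↘ (Spec (CommRingCat.of k)))] [IsReduced Y] [ConnectedSpace Y] :
    IsField (Coh.Γtop Y) :=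
  ReducedConnField.isField_of_universallyClosed (Y ↘ (Spec (CommRingCat.of k)))

/-- `dim_k H^0(Y, O_Y)` divides `dim_k H^i(Y, M)`. -/
theorem finrank_dvd_hh [IsProper (Y ↘ (Spec (CommRingCat.of k)))] [IsReduced Y] [ConnectedSpace Y]
    (M : Y.Modules) (i : ℕ) :
    Module.finrank k (Coh.HH Y (Coh.structureModule Y) 0) ∣ Module.finrank k (Coh.HH Y M i) := by
  rw [(hZeroTop k Y).finrank_eq]
  exact finrank_dvd (V := Coh.HH Y M i) (isField_top k Y) (Coh.toGlobal (Y ↘ (Spec (CommRingCat.of k))))

/-- `dim_k H^0(Y, O_Y)` divides every (truncated) Euler characteristic. -/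
theorem finrank_dvd_eulerCharLE [IsProper (Y ↘ (Spec (CommRingCat.of k)))] [IsReduced Y] [ConnectedSpace Y]
    (M : Y.Modules) (d : ℕ) :
    (Module.finrank k (Coh.HH Y (Coh.structureModule Y) 0) : ℤ) ∣ FGA.eulerCharLE k Y M d :=
  Finset.dvd_sum fun i _ => Dvd.dvd.mul_left (Int.natCast_dvd_natCast.2 (finrank_dvd_hh k Y M i)) _

/-- `dim_k H^0(Y, O_Y)` divides the degree of every module. -/
theorem finrank_dvd_curveDeg [IsProper (Y ↘ (Spec (CommRingCat.of k)))] [IsReduced Y] [ConnectedSpace Y]
    (M : Y.Modules) :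
    (Module.finrank k (Coh.HH Y (Coh.structureModule Y) 0) : ℤ) ∣ ArSurf.curveDeg k Y M :=
  dvd_sub (finrank_dvd_eulerCharLE k Y M 1) (finrank_dvd_eulerCharLE k Y _ 1)

/-- The global functions on an integral scheme proper over a field `k` are a finite `k`-module. -/
theorem finite_top [IsProper (Y ↘ (Spec (CommRingCat.of k)))] [IsIntegral Y] :
    Module.Finite k (Coh.Γtop Y) := by
  have h1 : ((Y ↘ (Spec (CommRingCat.of k))).appTop).hom.Finite :=
    finite_appTop_of_universallyClosed k (Y ↘ (Spec (CommRingCat.of k)))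
  have h2 : (Scheme.ΓSpecIso (CommRingCat.of k)).inv.hom.Finite :=
    RingHom.Finite.of_surjective _ (Scheme.ΓSpecIso (CommRingCat.of k)).symm.commRingCatIsoToRingEquiv.surjective
  have h3 : ((((Y ↘ (Spec (CommRingCat.of k))).appTop).hom.comp
    (Scheme.ΓSpecIso (CommRingCat.of k)).inv.hom : k →+* Γ(Y, ⊤))).Finite := RingHom.Finite.comp h1 h2
  exact ⟨h3.1⟩

/-- `dim_k H^0(Y, O_Y)` is positive. -/
theorem finrank_hh_zero_pos [IsProper (Y ↘ (Spec (CommRingCat.of k)))] [IsIntegral Y] :
    0 < Module.finrank k (Coh.HH Y (Coh.structureModule Y) 0) := by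
  have hf := finite_top k Y
  rw [(hZeroTop k Y).finrank_eq]
  have : Nonempty (⊤ : Y.Opens) := (inferInstance : Nonempty Y).map fun x => ⟨x, trivial⟩
  have h3 : Nontrivial (Coh.Γtop Y) := inferInstanceAs (Nontrivial Γ(Y, ⊤))
  exact Module.finrank_pos

end Groth.Agent.Models.H45.FieldConst
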