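import Groth.Prelude.Def_ModelsG
import Groth.Agent.Models.H45.FieldConst

/-!
# `wdeg` divides `h1` and every intersection number

For `X` proper over a discrete valuation ring `R` and a vertical prime divisor `Γ` of `X`:
`wdeg R X Γ = [κ_Γ : k] > 0`, it divides `h1 R X Γ`, every `dim_k H^i(Γ, M)` and every `inter R X L Γ`.
-/

set_option autoImplicit false
universe u
open CategoryTheory CategoryTheory.Limits AlgebraicGeometry TopologicalSpace Opposite

namespace Groth.Agent.Models.H45.WDeg

open Groth.Agent.Models.H45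

variable {R : Type u} [CommRing R] [IsDomain R] [IsDiscreteValuationRing R]
  {X : Over (Spec (CommRingCat.of R))}

theorem isProper_curve [IsProper X.hom] (Γ : ArSurf.VertComp R X) :
    IsProper (Γ.curve.left ↘ Spec (CommRingCat.of (IsLocalRing.ResidueField R))) := by
  have h1 : IsProper (Γ.curve.hom ≫ Spec.map (CommRingCat.ofHom (IsLocalRing.residue R))) := by
    rw [← Γ.w]
    infer_instance
  exact IsProper.of_comp Γ.curve.hom (Spec.map (CommRingCat.ofHom (IsLocalRing.residue R)))

theorem wdeg_pos [IsProper X.hom] (Γ : ArSurf.VertComp R X) : 0 < Models.wdeg R X Γ := by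
  have := isProper_curve Γ
  exact FieldConst.finrank_hh_zero_pos _ _

theorem wdeg_dvd_finrank [IsProper X.hom] (Γ : ArSurf.VertComp R X) (M : Γ.curve.left.Modules) (i : ℕ) :
    Models.wdeg R X Γ ∣ Module.finrank (IsLocalRing.ResidueField R) (Coh.HH Γ.curve.left M i) := by
  have := isProper_curve Γ
  exact FieldConst.finrank_dvd_hh _ _ M i

theorem wdeg_dvd_h1 [IsProper X.hom] (Γ : ArSurf.VertComp R X) :
    Models.wdeg R X Γ ∣ Models.h1 R X Γ :=
  wdeg_dvd_finrank Γ _ 1

theorem wdeg_dvd_inter [IsProper X.hom] (Γ : ArSurf.VertComp R X) (L : X.left.Modules) :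
    (Models.wdeg R X Γ : ℤ) ∣ ArSurf.inter R X L Γ := by
  have := isProper_curve Γ
  exact FieldConst.finrank_dvd_curveDeg _ _ _

end Groth.Agent.Models.H45.WDeg
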