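import Groth.Prelude.Def_ModelsG
import Groth.Agent.Models.H45.WDeg

/-!
# S3322 from its ingredients

`numericalType`: the numerical type of a regular proper model, given positivity of the multiplicities,
symmetry (S3316), non-negativity (S3317), `A m = 0` (S3318), connectedness (S3319) and the adjunction
formula summed up (S3321).
-/

set_option autoImplicit false
universe u
open CategoryTheory CategoryTheory.Limits AlgebraicGeometry TopologicalSpace Opposite

namespace Groth.Agent.Models.H45.NumGlue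

open Groth.Agent.Models.H45

variable {R : Type u} [CommRing R] [IsDomain R] [IsDiscreteValuationRing R]
  {X : Over (Spec (CommRingCat.of R))}

theorem exists_numericalType [IsProper X.hom] {n : ℕ} (Γ : Fin n → ArSurf.VertComp R X)
    (L : Fin n → X.left.Modules) (gC : ℤ) (hn : 0 < n)
    (hm : ∀ i, 0 < Models.mult R X (Γ i))
    (hsymm : ∀ i j, ArSurf.inter R X (L j) (Γ i) = ArSurf.inter R X (L i) (Γ j))
    (hoff : ∀ i j, i ≠ j → 0 ≤ ArSurf.inter R X (L j) (Γ i))
    (hker : ∀ j, ∑ i, (Models.mult R X (Γ i) : ℤ) * ArSurf.inter R X (L j) (Γ i) = 0)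
    (hconn : ∀ I : Finset (Fin n), I.Nonempty → I ≠ Finset.univ →
      ∃ i ∈ I, ∃ j ∉ I, ArSurf.inter R X (L j) (Γ i) ≠ 0)
    (hgen : 2 * gC = 2 + ∑ i, (Models.mult R X (Γ i) : ℤ) *
      (2 * ((Models.h1 R X (Γ i) : ℤ) - (Models.wdeg R X (Γ i) : ℤ)) - ArSurf.inter R X (L i) (Γ i))) :
    ∃ T : Models.NumericalType n,
      (∀ i, T.m i = (Models.mult R X (Γ i) : ℤ)) ∧ (∀ i j, T.a i j = ArSurf.inter R X (L j) (Γ i)) ∧
      (∀ i, T.w i = (Models.wdeg R X (Γ i) : ℤ)) ∧
      (∀ i, T.w i * T.g i = (Models.h1 R X (Γ i) : ℤ)) ∧ T.genus = gC := by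
  have hdvd : ∀ i, ∃ g : ℕ, Models.h1 R X (Γ i) = Models.wdeg R X (Γ i) * g :=
    fun i => WDeg.wdeg_dvd_h1 (Γ i)
  choose g hg using hdvd
  refine ⟨{ m := fun i => (Models.mult R X (Γ i) : ℤ)
            a := fun i j => ArSurf.inter R X (L j) (Γ i)
            w := fun i => (Models.wdeg R X (Γ i) : ℤ)
            g := fun i => (g i : ℤ)
            pos := hn
            m_pos := fun i => Int.natCast_pos.2 (hm i)
            w_pos := fun i => Int.natCast_pos.2 (WDeg.wdeg_pos (Γ i))
            g_nonneg := fun i => Int.natCast_nonneg _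
            symm := Matrix.IsSymm.ext fun i j => hsymm j i
            offDiag_nonneg := hoff
            connected := hconn
            mulVec_m := ?_
            w_dvd := fun i j => WDeg.wdeg_dvd_inter (Γ i) (L j) }, fun _ => rfl, fun _ _ => rfl,
            fun _ => rfl, fun i => ?_, ?_⟩
  · funext i
    have h := hker i
    change ∑ j, ArSurf.inter R X (L j) (Γ i) * (Models.mult R X (Γ j) : ℤ) = 0
    rw [← h]
    refine Finset.sum_congr rfl fun j _ => ?_
    rw [hsymm i j, mul_comm]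
  · change (Models.wdeg R X (Γ i) : ℤ) * (g i : ℤ) = (Models.h1 R X (Γ i) : ℤ)
    rw [hg i, Nat.cast_mul]
  · change 1 + (∑ i, (Models.mult R X (Γ i) : ℤ) * (Models.wdeg R X (Γ i) : ℤ) * ((g i : ℤ) - 1)) -
      (∑ i, (Models.mult R X (Γ i) : ℤ) * ArSurf.inter R X (L i) (Γ i)) / 2 = gC
    have h1 : ∑ i, (Models.mult R X (Γ i) : ℤ) *
        (2 * ((Models.h1 R X (Γ i) : ℤ) - (Models.wdeg R X (Γ i) : ℤ)) - ArSurf.inter R X (L i) (Γ i)) =
        2 * (∑ i, (Models.mult R X (Γ i) : ℤ) * (Models.wdeg R X (Γ i) : ℤ) * ((g i : ℤ) - 1)) -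
        (∑ i, (Models.mult R X (Γ i) : ℤ) * ArSurf.inter R X (L i) (Γ i)) := by
      rw [Finset.mul_sum, ← Finset.sum_sub_distrib]
      refine Finset.sum_congr rfl fun i _ => ?_
      rw [hg i, Nat.cast_mul]
      ring
    rw [h1] at hgen
    generalize (∑ i, (Models.mult R X (Γ i) : ℤ) * (Models.wdeg R X (Γ i) : ℤ) * ((g i : ℤ) - 1)) = A at *
    generalize (∑ i, (Models.mult R X (Γ i) : ℤ) * ArSurf.inter R X (L i) (Γ i)) = B at *
    omega

end Groth.Agent.Models.H45.NumGlue
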