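import Groth.Agent.Models.NumBasic
import Mathlib.Combinatorics.SimpleGraph.Metric
import Mathlib.Tactic.Ring
import Mathlib.Tactic.Linarith

/-!
# The combinatorial inequality for numerical types with an index of weight one

`T : NumericalType n` with an index `i₀` such that `T.w i₀ = 1`. Then
`Σ_{i<j} a_ij ≥ Σ w_i + e - n`, and if equality holds then, with `d` the distance to `i₀` in the graph of `T`:
* every `v ≠ i₀` has a neighbour `u` with `d u + 1 = d v`, and `a_vu = w_v` for each such neighbour;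
* if `1 < w_v` the other neighbours `j` of `v` satisfy `d j = d v + 1` and `a_vj = w_j`.
`leaf`: the leaf argument.
-/

set_option autoImplicit false

open Finset

namespace Groth.Agent.Models.H45.SpanIneq

open Groth.Agent.Models.NumBasic

variable {n : ℕ} (T : _root_.Models.NumericalType n)

/-- The graph of a numerical type. -/
def graph : SimpleGraph (Fin n) where
  Adj i j := i ≠ j ∧ 0 < T.a i j
  symm := ⟨fun i j h => ⟨h.1.symm, by rw [a_symm T j i]; exact h.2⟩⟩
  loopless := ⟨fun i h => h.1 rfl⟩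

theorem adj_iff (i j : Fin n) : (graph T).Adj i j ↔ i ≠ j ∧ 0 < T.a i j := Iff.rfl

theorem connected : (graph T).Connected := by
  classical
  have : Nonempty (Fin n) := ⟨⟨0, T.pos⟩⟩
  refine ⟨fun u v => ?_⟩
  let S : Finset (Fin n) := univ.filter fun x => (graph T).Reachable u x
  by_contra hv
  have h1 : S.Nonempty := ⟨u, by simp [S]⟩
  have h2 : S ≠ univ := by
    intro h
    have : v ∈ S := by rw [h]; exact mem_univ _
    simp only [S, mem_filter, mem_univ, true_and] at this
    exact hv this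
  obtain ⟨i, hi, j, hj, hij⟩ := T.connected S h1 h2
  simp only [S, mem_filter, mem_univ, true_and] at hi hj
  have hne : i ≠ j := by
    rintro rfl
    exact hj hi
  have hadj : (graph T).Adj i j := ⟨hne, lt_of_le_of_ne (T.offDiag_nonneg i j hne) (Ne.symm hij)⟩
  exact hj (hi.trans hadj.reachable)

/-- The distance to `i₀`. -/
noncomputable def d (i₀ v : Fin n) : ℕ := (graph T).dist i₀ v

theorem exists_lower (i₀ v : Fin n) (hv : v ≠ i₀) : ∃ u, (graph T).Adj v u ∧ d T i₀ u + 1 = d T i₀ v := by
  obtain ⟨p, hp⟩ := (connected T).exists_walk_length_eq_dist v i₀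
  cases p with
  | nil => exact absurd rfl hv
  | cons h q =>
    rename_i u
    refine ⟨u, h, ?_⟩
    have h1 : (graph T).dist u i₀ ≤ q.length := (graph T).dist_le q
    rw [SimpleGraph.Walk.length_cons] at hp
    have h2 : (graph T).dist v i₀ ≤ (graph T).dist v u + (graph T).dist u i₀ := (connected T).dist_triangle
    rw [SimpleGraph.dist_eq_one_iff_adj.2 h] at h2
    unfold d
    rw [SimpleGraph.dist_comm (u := i₀) (v := u), SimpleGraph.dist_comm (u := i₀) (v := v)]
    omega

/-- The set of edges. -/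
def E : Finset (Fin n × Fin n) := univ.filter fun p : Fin n × Fin n => p.1 < p.2 ∧ 0 < T.a p.1 p.2

theorem mem_E (p : Fin n × Fin n) : p ∈ E T ↔ p.1 < p.2 ∧ 0 < T.a p.1 p.2 := by
  simp [E]

theorem card_E : (E T).card = T.edgeCount := rfl

/-- The sum of the `a_ij`, `i < j`. -/
def offSum : ℤ := ∑ p ∈ univ.filter (fun p : Fin n × Fin n => p.1 < p.2), T.a p.1 p.2

theorem offSum_eq : offSum T = ∑ p ∈ E T, T.a p.1 p.2 := by
  symm
  apply Finset.sum_subset
  · intro p hp
    simp only [E, mem_filter, mem_univ, true_and] at hp ⊢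
    exact hp.1
  · intro p hp hp'
    simp only [E, mem_filter, mem_univ, true_and, not_and, not_lt] at hp hp'
    exact le_antisymm (hp' hp) (T.offDiag_nonneg _ _ (ne_of_lt hp))

/-- The edge (an ordered pair) joining `u` and `v`. -/
def ed (u v : Fin n) : Fin n × Fin n := if u < v then (u, v) else (v, u)

theorem a_ed (u v : Fin n) : T.a (ed u v).1 (ed u v).2 = T.a u v := by
  unfold ed
  split_ifs
  · rfl
  · exact a_symm T v u

theorem ed_mem {u v : Fin n} (h : (graph T).Adj u v) : ed u v ∈ E T := by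
  rw [mem_E, a_ed]
  refine ⟨?_, h.2⟩
  unfold ed
  split_ifs with h1
  · exact h1
  · exact lt_of_le_of_ne (not_lt.1 h1) h.1.symm

theorem ed_eq_iff (u v u' v' : Fin n) (h : ed u v = ed u' v') : (u = u' ∧ v = v') ∨ (u = v' ∧ v = u') := by
  unfold ed at h
  split_ifs at h <;> simp only [Prod.mk.injEq] at h <;> tauto

/-- A parent function: every `v ≠ i₀` is sent to a neighbour which is closer to `i₀`. -/
def IsPar (i₀ : Fin n) (par : Fin n → Fin n) : Prop :=
  ∀ v, v ≠ i₀ → (graph T).Adj v (par v) ∧ d T i₀ (par v) + 1 = d T i₀ v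

theorem injOn_ed (i₀ : Fin n) {par : Fin n → Fin n} (hpar : IsPar T i₀ par) :
    Set.InjOn (fun v => ed v (par v)) (univ.erase i₀ : Finset (Fin n)) := by
  intro v hv u hu h
  rw [Finset.mem_coe, mem_erase] at hv hu
  rcases ed_eq_iff _ _ _ _ h with h1 | h1
  · exact h1.1
  · have h2 := (hpar v hv.1).2
    have h3 := (hpar u hu.1).2
    rw [h1.2] at h2
    rw [← h1.1] at h3
    omega

/-- The fundamental identity. -/
theorem offSum_identity (i₀ : Fin n) (hw : T.w i₀ = 1) {par : Fin n → Fin n} (hpar : IsPar T i₀ par) :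
    offSum T = ((∑ v, T.w v) + (T.edgeCount : ℤ) - n) + ∑ v ∈ univ.erase i₀, (T.a v (par v) - T.w v) +
      ∑ e ∈ E T \ (univ.erase i₀).image (fun v => ed v (par v)), (T.a e.1 e.2 - 1) := by
  classical
  rw [offSum_eq]
  set F := (univ.erase i₀).image (fun v => ed v (par v)) with hF
  have hFE : F ⊆ E T := by
    intro e he
    rw [hF, mem_image] at he
    obtain ⟨v, hv, rfl⟩ := he
    exact ed_mem T (hpar v (ne_of_mem_erase hv)).1
  have hcF : F.card + 1 = n := by
    rw [hF, card_image_of_injOn (injOn_ed T i₀ hpar), card_erase_of_mem (mem_univ _), card_univ, Fintype.card_fin]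
    have := T.pos
    omega
  have hsF : ∑ e ∈ F, T.a e.1 e.2 = ∑ v ∈ univ.erase i₀, T.a v (par v) := by
    rw [hF, sum_image (injOn_ed T i₀ hpar)]
    exact sum_congr rfl fun v _ => a_ed T v (par v)
  rw [← sum_sdiff hFE, hsF, sum_sub_distrib, sum_sub_distrib, sum_const, nsmul_eq_mul, mul_one,
    card_sdiff_of_subset hFE, card_E]
  have h1 : ∑ v, T.w v = T.w i₀ + ∑ v ∈ univ.erase i₀, T.w v := (add_sum_erase _ _ (mem_univ _)).symm
  have h2 : F.card ≤ T.edgeCount := by
    rw [← card_E]
    exact card_le_card hFE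
  rw [h1, hw, Nat.cast_sub h2]
  have h3 : (F.card : ℤ) + 1 = n := by exact_mod_cast hcF
  linarith

theorem exists_par (i₀ : Fin n) : ∃ par, IsPar T i₀ par := by
  classical
  refine ⟨fun v => if h : v ≠ i₀ then (exists_lower T i₀ v h).choose else v, fun v hv => ?_⟩
  simp only [dif_pos hv]
  exact (exists_lower T i₀ v hv).choose_spec

theorem par_update (i₀ : Fin n) {par : Fin n → Fin n} (hpar : IsPar T i₀ par) (v u : Fin n)
    (h : (graph T).Adj v u) (hd : d T i₀ u + 1 = d T i₀ v) : IsPar T i₀ (Function.update par v u) := by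
  intro x hx
  by_cases hxv : x = v
  · subst hxv
    rw [Function.update_self]
    exact ⟨h, hd⟩
  · rw [Function.update_of_ne hxv]
    exact hpar x hx

theorem w_le_of_adj {v u : Fin n} (h : (graph T).Adj v u) : T.w v ≤ T.a v u :=
  Int.le_of_dvd h.2 (T.w_dvd v u)

theorem terms_nonneg (i₀ : Fin n) {par : Fin n → Fin n} (hpar : IsPar T i₀ par) :
    0 ≤ ∑ v ∈ univ.erase i₀, (T.a v (par v) - T.w v) ∧
      0 ≤ ∑ e ∈ E T \ (univ.erase i₀).image (fun v => ed v (par v)), (T.a e.1 e.2 - 1) := by
  refine ⟨sum_nonneg fun v hv => ?_, sum_nonneg fun e he => ?_⟩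
  · have := w_le_of_adj T (hpar v (ne_of_mem_erase hv)).1
    omega
  · have := ((mem_E T e).1 (mem_sdiff.1 he).1).2
    omega

/-- The inequality `Σ w_i + e - n ≤ Σ_{i<j} a_ij` for a numerical type with an index of weight one. -/
theorem offSum_ge (i₀ : Fin n) (hw : T.w i₀ = 1) :
    (∑ v, T.w v) + (T.edgeCount : ℤ) - n ≤ offSum T := by
  obtain ⟨par, hpar⟩ := exists_par T i₀
  have h1 := offSum_identity T i₀ hw hpar
  have h2 := terms_nonneg T i₀ hpar
  linarith [h2.1, h2.2]

section Equality

variable (i₀ : Fin n) (hw : T.w i₀ = 1)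
  (heq : offSum T ≤ (∑ v, T.w v) + (T.edgeCount : ℤ) - n)

include hw heq

theorem eq_of_par {par : Fin n → Fin n} (hpar : IsPar T i₀ par) (v : Fin n) (hv : v ≠ i₀) :
    T.a v (par v) = T.w v := by
  have h1 := offSum_identity T i₀ hw hpar
  have h2 := terms_nonneg T i₀ hpar
  have h3 : ∑ v ∈ univ.erase i₀, (T.a v (par v) - T.w v) = 0 := by linarith [h2.1, h2.2]
  rw [sum_eq_zero_iff_of_nonneg] at h3
  · have := h3 v (mem_erase.2 ⟨hv, mem_univ _⟩)
    omega
  · intro v hv
    have := w_le_of_adj T (hpar v (ne_of_mem_erase hv)).1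
    omega

theorem eq_one_of_par {par : Fin n → Fin n} (hpar : IsPar T i₀ par) (u v : Fin n) (h : (graph T).Adj u v)
    (hu : par u = v → u = i₀) (hv : par v = u → v = i₀) : T.a u v = 1 := by
  classical
  have h1 := offSum_identity T i₀ hw hpar
  have h2 := terms_nonneg T i₀ hpar
  have h3 : ∑ e ∈ E T \ (univ.erase i₀).image (fun v => ed v (par v)), (T.a e.1 e.2 - 1) = 0 := by
    linarith [h2.1, h2.2]
  rw [sum_eq_zero_iff_of_nonneg] at h3
  · have h4 : ed u v ∈ E T \ (univ.erase i₀).image (fun v => ed v (par v)) := by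
      rw [mem_sdiff]
      refine ⟨ed_mem T h, fun hc => ?_⟩
      rw [mem_image] at hc
      obtain ⟨x, hx, hxe⟩ := hc
      rcases ed_eq_iff _ _ _ _ hxe with ⟨h5, h6⟩ | ⟨h5, h6⟩
      · subst h5
        exact ne_of_mem_erase hx (hu h6)
      · subst h5
        exact ne_of_mem_erase hx (hv h6)
    have h5 := h3 _ h4
    rw [a_ed] at h5
    omega
  · intro e he
    have := ((mem_E T e).1 (mem_sdiff.1 he).1).2
    omega

/-- In the equality case, `a_vu = w_v` for every lower neighbour `u` of `v`. -/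
theorem lower_eq (v u : Fin n) (h : (graph T).Adj v u) (hd : d T i₀ u + 1 = d T i₀ v) : T.a v u = T.w v := by
  obtain ⟨par, hpar⟩ := exists_par T i₀
  have hv : v ≠ i₀ := by
    rintro rfl
    have : d T v v = 0 := SimpleGraph.dist_self
    omega
  have h1 := eq_of_par T i₀ hw heq (par_update T i₀ hpar v u h hd) v hv
  rwa [Function.update_self] at h1

/-- In the equality case, every index other than `i₀` has a neighbour `u` with `a_vu = w_v`. -/
theorem exists_eq (v : Fin n) (hv : v ≠ i₀) : ∃ u, u ≠ v ∧ T.a v u = T.w v := by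
  obtain ⟨u, hu, hd⟩ := exists_lower T i₀ v hv
  exact ⟨u, hu.1.symm, lower_eq T i₀ hw heq v u hu hd⟩

/-- In the equality case, two distinct lower neighbours force weight one. -/
theorem w_eq_one_of_two_lower (v u u' : Fin n) (h : (graph T).Adj v u) (hd : d T i₀ u + 1 = d T i₀ v)
    (h' : (graph T).Adj v u') (hd' : d T i₀ u' + 1 = d T i₀ v) (hne : u ≠ u') : T.w v = 1 := by
  obtain ⟨par, hpar⟩ := exists_par T i₀
  have hv : v ≠ i₀ := by
    rintro rfl
    have : d T v v = 0 := SimpleGraph.dist_self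
    omega
  have hpar' := par_update T i₀ hpar v u h hd
  have h1 : T.a v u' = 1 := by
    refine eq_one_of_par T i₀ hw heq hpar' v u' h' (fun hc => ?_) (fun hc => ?_)
    · rw [Function.update_self] at hc
      exact absurd hc hne
    · by_contra hu'
      rw [Function.update_of_ne (Ne.symm h'.1)] at hc
      have h3 := (hpar u' hu').2
      rw [hc] at h3
      omega
  have h2 := T.w_dvd v u'
  rw [h1] at h2
  have h3 := T.w_pos v
  have := Int.le_of_dvd one_pos h2
  omega

/-- In the equality case, two neighbours at the same distance have `a = 1`. -/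
theorem w_eq_one_of_level (v u : Fin n) (h : (graph T).Adj v u) (hd : d T i₀ u = d T i₀ v) : T.w v = 1 := by
  obtain ⟨par, hpar⟩ := exists_par T i₀
  have h1 : T.a v u = 1 := by
    refine eq_one_of_par T i₀ hw heq hpar v u h (fun hc => ?_) (fun hc => ?_)
    · by_contra hv
      have h3 := (hpar v hv).2
      rw [hc] at h3
      omega
    · by_contra hv
      have h3 := (hpar u hv).2
      rw [hc] at h3
      omega
  have h2 := T.w_dvd v u
  rw [h1] at h2
  have h3 := T.w_pos v
  have := Int.le_of_dvd one_pos h2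
  omega

/-- The structure of the neighbourhood of an index of weight `> 1` in the equality case. -/
theorem neighbour (v : Fin n) (hv : 1 < T.w v) :
    ∃ u, u ≠ v ∧ T.a v u = T.w v ∧ d T i₀ u + 1 = d T i₀ v ∧
      ∀ j, j ≠ v → j ≠ u → 0 < T.a v j → d T i₀ j = d T i₀ v + 1 ∧ T.a v j = T.w j := by
  have hv0 : v ≠ i₀ := by
    rintro rfl
    omega
  obtain ⟨u, hu, hd⟩ := exists_lower T i₀ v hv0
  refine ⟨u, hu.1.symm, lower_eq T i₀ hw heq v u hu hd, hd, fun j hj hju hpos => ?_⟩
  have hadj : (graph T).Adj v j := ⟨hj.symm, hpos⟩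
  rcases hadj.diff_dist_adj (u := i₀) with h1 | h1 | h1
  · have := w_eq_one_of_level T i₀ hw heq v j hadj h1
    omega
  · have h2 : d T i₀ j = d T i₀ v + 1 := h1
    refine ⟨h2, ?_⟩
    rw [a_symm]
    exact lower_eq T i₀ hw heq j v hadj.symm h2.symm
  · have h2 : d T i₀ j + 1 = d T i₀ v := by
      have h3 : d T i₀ j = d T i₀ v - 1 := h1
      have h4 : 0 < d T i₀ v := (connected T).pos_dist_of_ne hv0.symm
      omega
    have := w_eq_one_of_two_lower T i₀ hw heq v u j hu hd hadj h2 (Ne.symm hju)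
    omega

/-- The leaf argument. Equality case, all multiplicities one, `P` a property of indices of weight `> 1` which
passes from `v` to its neighbours `j` with `a_vj = w_j`, and which excludes `a_vv = - w_v`. Then no index has `P`. -/
theorem leaf (hm : ∀ i, T.m i = 1) (P : Fin n → Prop) (hP : ∀ i, P i → 1 < T.w i)
    (hered : ∀ i j, i ≠ j → P i → 0 < T.a i j → T.a i j = T.w j → P j)
    (hmin : ∀ i, P i → T.a i i ≠ - T.w i) (i : Fin n) : ¬ P i := by
  classical
  intro hi
  obtain ⟨v, hv, hmax⟩ := Finset.exists_max_image (univ.filter P) (d T i₀) ⟨i, by simpa using hi⟩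
  simp only [mem_filter, mem_univ, true_and] at hv hmax
  obtain ⟨u, hu, hau, hdu, hnb⟩ := neighbour T i₀ hw heq v (hP v hv)
  have h0 : ∀ j, j ≠ v → j ≠ u → T.a v j = 0 := by
    intro j hj hju
    by_contra hne
    have hpos : 0 < T.a v j := lt_of_le_of_ne (T.offDiag_nonneg v j hj.symm) (Ne.symm hne)
    obtain ⟨h1, h2⟩ := hnb j hj hju hpos
    have h3 := hmax j (hered v j hj.symm hv hpos h2)
    omega
  have h4 := row_sum T v
  rw [← add_sum_erase univ _ (mem_univ v), ← add_sum_erase (univ.erase v) _ (mem_erase.2 ⟨hu, mem_univ u⟩)] at h4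
  rw [sum_eq_zero (s := (univ.erase v).erase u) (fun j hj => by
    rw [mem_erase, mem_erase] at hj
    rw [h0 j hj.2.1 hj.1, zero_mul]), hm, hm, hau] at h4
  exact hmin v hv (by linarith)

end Equality

end Groth.Agent.Models.H45.SpanIneq
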