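import Groth.Prelude.Def_ModelsG
import Groth.Agent.Models.H45.SpanIneq
import Groth.Agent.Models.H47.EulerLen

/-!
# The Euler characteristic of the reduced closed fibre (SSR-P4 (b), (c)), from the one-step formula

Input: the formula S3325 for exponent vectors with values in `{0, 1}`, symmetry of the intersection matrix.
-/

set_option autoImplicit false
universe u
open CategoryTheory CategoryTheory.Limits AlgebraicGeometry TopologicalSpace Opposite

namespace Groth.Agent.Models.H45.RedChiCore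

open Groth.Agent.Models.H47

/-- A double sum of a symmetric function in terms of the diagonal and the pairs `i < j`. -/
theorem sum_sum_symm {n : ℕ} (f : Fin n → Fin n → ℤ) (hf : ∀ i j, f i j = f j i) :
    ∑ i, ∑ j, f i j = ∑ i, f i i +
      2 * ∑ p ∈ Finset.univ.filter (fun p : Fin n × Fin n => p.1 < p.2), f p.1 p.2 := by
  have h1 : ∑ i, ∑ j, f i j = ∑ p : Fin n × Fin n, f p.1 p.2 := by
    rw [← Finset.univ_product_univ, Finset.sum_product]
  have h2 : ∑ p : Fin n × Fin n, f p.1 p.2 =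
      ∑ p ∈ Finset.univ.filter (fun p : Fin n × Fin n => p.1 < p.2), f p.1 p.2 +
      ∑ p ∈ Finset.univ.filter (fun p : Fin n × Fin n => ¬ p.1 < p.2), f p.1 p.2 :=
    (Finset.sum_filter_add_sum_filter_not _ _ _).symm
  have h3 : ∑ p ∈ Finset.univ.filter (fun p : Fin n × Fin n => ¬ p.1 < p.2), f p.1 p.2 =
      ∑ p ∈ (Finset.univ.filter (fun p : Fin n × Fin n => ¬ p.1 < p.2)).filter (fun p => p.2 < p.1),
        f p.1 p.2 +
      ∑ p ∈ (Finset.univ.filter (fun p : Fin n × Fin n => ¬ p.1 < p.2)).filter (fun p => ¬ p.2 < p.1),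
        f p.1 p.2 := (Finset.sum_filter_add_sum_filter_not _ _ _).symm
  have h4 : (Finset.univ.filter (fun p : Fin n × Fin n => ¬ p.1 < p.2)).filter (fun p => p.2 < p.1) =
      Finset.univ.filter (fun p : Fin n × Fin n => p.2 < p.1) := by
    ext p
    simp only [Finset.mem_filter, Finset.mem_univ, true_and]
    constructor
    · exact fun h => h.2
    · exact fun h => ⟨not_lt.mpr h.le, h⟩
  have h5 : ∑ p ∈ Finset.univ.filter (fun p : Fin n × Fin n => p.2 < p.1), f p.1 p.2 =
      ∑ p ∈ Finset.univ.filter (fun p : Fin n × Fin n => p.1 < p.2), f p.1 p.2 := by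
    refine Finset.sum_bij' (fun p _ => p.swap) (fun p _ => p.swap) ?_ ?_ ?_ ?_ ?_
    · intro p hp; simpa using hp
    · intro p hp; simpa using hp
    · intro p hp; simp
    · intro p hp; simp
    · intro p hp; exact hf _ _
  have h6 : ∑ p ∈ (Finset.univ.filter (fun p : Fin n × Fin n => ¬ p.1 < p.2)).filter
      (fun p => ¬ p.2 < p.1), f p.1 p.2 = ∑ i, f i i := by
    refine Finset.sum_bij' (fun p _ => p.1) (fun i _ => (i, i)) ?_ ?_ ?_ ?_ ?_
    · intro p hp; simp
    · intro p hp; simp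
    · intro p hp
      simp only [Finset.mem_filter, Finset.mem_univ, true_and] at hp
      have : p.1 = p.2 := le_antisymm (not_lt.mp hp.2) (not_lt.mp hp.1)
      ext <;> simp [this]
    · intro p hp; simp
    · intro p hp
      simp only [Finset.mem_filter, Finset.mem_univ, true_and] at hp
      have : p.1 = p.2 := le_antisymm (not_lt.mp hp.2) (not_lt.mp hp.1)
      simp [this]
  rw [h1, h2, h3, h4, h5, h6]
  ring

/-- The direct image of the structure sheaf of the empty closed subscheme vanishes. -/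
theorem isZero_quotMod_top (X : Scheme.{u}) : IsZero (ClSub.quotMod (⊤ : X.IdealSheafData)) := by
  have hE : IsEmpty (⊤ : X.IdealSheafData).subscheme := inferInstance
  rw [IsZero.iff_id_eq_zero]
  apply Scheme.Modules.hom_ext
  intro V
  have : Subsingleton Γ((⊤ : X.IdealSheafData).subscheme, (⊤ : X.IdealSheafData).subschemeι ⁻¹ᵁ V) := by
    have h1 : (⊤ : X.IdealSheafData).subschemeι ⁻¹ᵁ V = ⊥ := by
      ext x
      exact hE.elim x
    rw [h1]
    infer_instance
  ext s
  exact Subsingleton.elim (α := Γ((⊤ : X.IdealSheafData).subscheme, (⊤ : X.IdealSheafData).subschemeι ⁻¹ᵁ V)) _ _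

section

variable {R : Type u} [CommRing R] [IsDomain R] [IsDiscreteValuationRing R]
  (X : Over (Spec (CommRingCat.of R)))

/-- `χ_R(O_X / J)`. -/
noncomputable def chiQ (J : X.left.IdealSheafData) : ℤ :=
  (Models.lengthH R X (ClSub.quotMod J) 0 : ℤ) - (Models.lengthH R X (ClSub.quotMod J) 1 : ℤ)

theorem chiQ_top : chiQ X ⊤ = 0 :=
  (EulerLen.good_of_isZero (R := R) (isZero_quotMod_top X.left)).2

variable {X} {n : ℕ} (Γ : Fin n → ArSurf.VertComp R X) (L : Fin n → X.left.Modules)

/-- SSR-P4 (b), doubled: the Euler characteristic of `Σ_{i ∈ s} Γ_i`. -/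
theorem two_chiQ_prod
    (hsymm : ∀ i j, ArSurf.inter R X (L j) (Γ i) = ArSurf.inter R X (L i) (Γ j))
    (hstep : ∀ (a : Fin n → ℕ) (i : Fin n), (∀ j, a j + (if j = i then 1 else 0) ≤ 1) →
      chiQ X (∏ j, (Γ j).ι.ker ^ (a j + if j = i then 1 else 0)) - chiQ X (∏ j, (Γ j).ι.ker ^ a j) =
        -(∑ j, (a j : ℤ) * ArSurf.inter R X (L i) (Γ j)) +
        ((Models.wdeg R X (Γ i) : ℤ) - (Models.h1 R X (Γ i) : ℤ)))
    (s : Finset (Fin n)) :
    2 * chiQ X (∏ j, (Γ j).ι.ker ^ (if j ∈ s then 1 else 0)) =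
      2 * (∑ i ∈ s, ((Models.wdeg R X (Γ i) : ℤ) - (Models.h1 R X (Γ i) : ℤ))) -
        ∑ i ∈ s, ∑ j ∈ s, ArSurf.inter R X (L j) (Γ i) + ∑ i ∈ s, ArSurf.inter R X (L i) (Γ i) := by
  classical
  induction s using Finset.induction_on with
  | empty =>
    simp only [Finset.notMem_empty, if_false, pow_zero, Finset.prod_const_one, Finset.sum_empty]
    rw [show (1 : X.left.IdealSheafData) = ⊤ from rfl, chiQ_top]
    rfl
  | insert i s hi ih =>
    have h1 := hstep (fun j => if j ∈ s then 1 else 0) i (fun j => by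
      by_cases hj : j = i
      · subst hj
        simp [hi]
      · simp only [hj, if_false, add_zero]
        split_ifs <;> omega)
    have h2 : ∀ j, ((if j ∈ s then 1 else 0) + if j = i then 1 else 0) = if j ∈ insert i s then 1 else 0 := by
      intro j
      by_cases hj : j = i
      · subst hj
        simp [hi]
      · simp [hj]
    simp only [h2] at h1
    have h3 : ∑ j, (((if j ∈ s then 1 else 0 : ℕ)) : ℤ) * ArSurf.inter R X (L i) (Γ j) =
        ∑ j ∈ s, ArSurf.inter R X (L i) (Γ j) := by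
      simp only [Nat.cast_ite, Nat.cast_one, Nat.cast_zero, ite_mul, one_mul, zero_mul]
      rw [Finset.sum_ite_mem, Finset.univ_inter]
    rw [h3] at h1
    have h4 : ∑ x ∈ insert i s, ∑ j ∈ insert i s, ArSurf.inter R X (L j) (Γ x) =
        ArSurf.inter R X (L i) (Γ i) + 2 * (∑ j ∈ s, ArSurf.inter R X (L i) (Γ j)) +
          ∑ x ∈ s, ∑ j ∈ s, ArSurf.inter R X (L j) (Γ x) := by
      rw [Finset.sum_insert hi, Finset.sum_insert hi]
      have h5 : ∑ x ∈ s, ∑ j ∈ insert i s, ArSurf.inter R X (L j) (Γ x) =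
          ∑ j ∈ s, ArSurf.inter R X (L i) (Γ j) + ∑ x ∈ s, ∑ j ∈ s, ArSurf.inter R X (L j) (Γ x) := by
        rw [← Finset.sum_add_distrib]
        exact Finset.sum_congr rfl fun x _ => Finset.sum_insert hi
      have h6 : ∑ j ∈ s, ArSurf.inter R X (L j) (Γ i) = ∑ j ∈ s, ArSurf.inter R X (L i) (Γ j) :=
        Finset.sum_congr rfl fun j _ => hsymm i j
      rw [h5, h6]
      ring
    rw [h4, Finset.sum_insert hi, Finset.sum_insert hi]
    have h7 := h1
    linarith

/-- SSR-P4 (b). -/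
theorem chiQ_red
    (hsymm : ∀ i j, ArSurf.inter R X (L j) (Γ i) = ArSurf.inter R X (L i) (Γ j))
    (hstep : ∀ (a : Fin n → ℕ) (i : Fin n), (∀ j, a j + (if j = i then 1 else 0) ≤ 1) →
      chiQ X (∏ j, (Γ j).ι.ker ^ (a j + if j = i then 1 else 0)) - chiQ X (∏ j, (Γ j).ι.ker ^ a j) =
        -(∑ j, (a j : ℤ) * ArSurf.inter R X (L i) (Γ j)) +
        ((Models.wdeg R X (Γ i) : ℤ) - (Models.h1 R X (Γ i) : ℤ)))
    (hred : ∏ j, (Γ j).ι.ker = Models.redFibreIdeal R X) :
    chiQ X (Models.redFibreIdeal R X) =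
      (∑ i, ((Models.wdeg R X (Γ i) : ℤ) - (Models.h1 R X (Γ i) : ℤ))) -
        ∑ q ∈ Finset.univ.filter (fun q : Fin n × Fin n => q.1 < q.2), ArSurf.inter R X (L q.2) (Γ q.1) := by
  have h1 := two_chiQ_prod Γ L hsymm hstep Finset.univ
  simp only [Finset.mem_univ, if_true, pow_one] at h1
  rw [hred, sum_sum_symm (fun i j => ArSurf.inter R X (L j) (Γ i)) hsymm] at h1
  linarith

/-- SSR-P4 (c): the topological genus of the numerical type plus the `h1 Γ_i` is at most `h1` of the reduced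
closed fibre, provided some `w_i` is one and `h0` of the reduced closed fibre is one. -/
theorem topGenus_add_le (T : Models.NumericalType n)
    (hTa : ∀ i j, T.a i j = ArSurf.inter R X (L j) (Γ i))
    (hTw : ∀ i, T.w i = (Models.wdeg R X (Γ i) : ℤ)) (i₀ : Fin n) (hw : T.w i₀ = 1)
    (h0 : Models.lengthH R X (ClSub.quotMod (Models.redFibreIdeal R X)) 0 = 1)
    (hchi : chiQ X (Models.redFibreIdeal R X) =
      (∑ i, ((Models.wdeg R X (Γ i) : ℤ) - (Models.h1 R X (Γ i) : ℤ))) -
        ∑ q ∈ Finset.univ.filter (fun q : Fin n × Fin n => q.1 < q.2), ArSurf.inter R X (L q.2) (Γ q.1)) :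
    T.topGenus + ∑ i, (Models.h1 R X (Γ i) : ℤ) ≤
      (Models.lengthH R X (ClSub.quotMod (Models.redFibreIdeal R X)) 1 : ℤ) := by
  have h1 := SpanIneq.offSum_ge T i₀ hw
  unfold SpanIneq.offSum at h1
  simp only [hTa, hTw] at h1
  unfold chiQ at hchi
  rw [h0, Finset.sum_sub_distrib] at hchi
  unfold Models.NumericalType.topGenus
  push_cast at hchi
  linarith

/-- The equality case of SSR-P4 (c), in terms of `SpanIneq.offSum`. -/
theorem offSum_le_of_le (T : Models.NumericalType n)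
    (hTa : ∀ i j, T.a i j = ArSurf.inter R X (L j) (Γ i))
    (hTw : ∀ i, T.w i = (Models.wdeg R X (Γ i) : ℤ))
    (h0 : Models.lengthH R X (ClSub.quotMod (Models.redFibreIdeal R X)) 0 = 1)
    (hchi : chiQ X (Models.redFibreIdeal R X) =
      (∑ i, ((Models.wdeg R X (Γ i) : ℤ) - (Models.h1 R X (Γ i) : ℤ))) -
        ∑ q ∈ Finset.univ.filter (fun q : Fin n × Fin n => q.1 < q.2), ArSurf.inter R X (L q.2) (Γ q.1))
    (hle : (Models.lengthH R X (ClSub.quotMod (Models.redFibreIdeal R X)) 1 : ℤ) ≤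
      T.topGenus + ∑ i, (Models.h1 R X (Γ i) : ℤ)) :
    SpanIneq.offSum T ≤ (∑ v, T.w v) + (T.edgeCount : ℤ) - n := by
  unfold SpanIneq.offSum
  simp only [hTa, hTw]
  unfold chiQ at hchi
  rw [h0, Finset.sum_sub_distrib] at hchi
  unfold Models.NumericalType.topGenus at hle
  push_cast at hchi
  linarith

end

end Groth.Agent.Models.H45.RedChiCore
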