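import Groth.Prelude.Def_ModelsG
import Groth.Agent.CurvesC.CurveNum
import Groth.Agent.CurvesC.ReducedConnField
import Groth.Agent.Ega1.ReducedSub
import Groth.Agent.Models.H71.Comps
import Mathlib.AlgebraicGeometry.ValuativeCriterion

/-!
# `H^0` of the reduced closed fibre of a regular proper model with a rational point on the generic fibre

* `exists_section`: a `K`-point of the generic fibre extends to a section of a proper model;
* `length_hh_zero`: if `Y → Spec R` factors over `Spec k`, `Γ(Y, O)` is a field and `Y` has a `k`-point over `R`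
  then `H^0(Y, O_Y)` has length one over `R`;
* `lengthH_redFibre_zero`: SSR-P4 (a).
-/

set_option autoImplicit false
universe u
open CategoryTheory CategoryTheory.Limits AlgebraicGeometry TopologicalSpace Opposite

namespace Groth.Agent.Models.H45.RedH0

open Groth.Agent.CurvesC Groth.Agent.CurvesC.CurveNum

section Section

variable {R : Type u} [CommRing R] [IsDomain R] [IsDiscreteValuationRing R]

/-- A rational point of the generic fibre of a proper scheme over a discrete valuation ring extends to a section. -/
theorem exists_section {X : Scheme.{u}} (p : X ⟶ Spec (CommRingCat.of R)) [IsProper p]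
    (s : Spec (CommRingCat.of (FractionRing R)) ⟶ X)
    (hs : s ≫ p = Spec.map (CommRingCat.ofHom (algebraMap R (FractionRing R)))) :
    ∃ σ : Spec (CommRingCat.of R) ⟶ X, σ ≫ p = 𝟙 _ ∧
      Spec.map (CommRingCat.ofHom (algebraMap R (FractionRing R))) ≫ σ = s := by
  have hG : IsProper p := inferInstance
  rw [IsProper.eq_valuativeCriterion] at hG
  have hex := ValuativeCriterion.existence hG.1.1.1
  let S : ValuativeCommSq p :=
    { R := R
      K := FractionRing R
      i₁ := s
      i₂ := 𝟙 _
      commSq := ⟨by rw [hs, Category.comp_id]⟩ }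
  obtain ⟨⟨l⟩⟩ := hex S
  exact ⟨l.l, l.fac_right, l.fac_left⟩

end Section

section Length

variable (R : Type u) [CommRing R] [IsLocalRing R] (Y : Scheme.{u}) [Y.Over (Spec (CommRingCat.of R))]

attribute [local instance] topMod

/-- If `Γ(Y, O_Y)` is a field and `Y` has a point with values in the residue field of `R` over `Spec R`, then
`H^0(Y, O_Y)` is a simple `R`-module. -/
theorem length_hh_zero (hF : IsField (Coh.Γtop Y))
    (t : Spec (CommRingCat.of (IsLocalRing.ResidueField R)) ⟶ Y)
    (ht : t ≫ (Y ↘ Spec (CommRingCat.of R)) = Spec.map (CommRingCat.ofHom (IsLocalRing.residue R))) :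
    Module.length R (Coh.HH Y (Coh.structureModule Y) 0) = 1 := by
  rw [(hZeroTop R Y).length_eq, Module.length_eq_one_iff]
  -- evaluation at the point
  let ev : Coh.Γtop Y →+* IsLocalRing.ResidueField R :=
    (Scheme.ΓSpecIso (CommRingCat.of (IsLocalRing.ResidueField R))).hom.hom.comp (topMap t)
  have hcomp : ∀ r : R, ev (Coh.toGlobal (Y ↘ Spec (CommRingCat.of R)) r) = IsLocalRing.residue R r := by
    intro r
    have h1 : topMap t (Coh.toGlobal (Y ↘ Spec (CommRingCat.of R)) r) =
        Coh.toGlobal (t ≫ (Y ↘ Spec (CommRingCat.of R))) r := (toGlobal_comp t _ r).symm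
    change (Scheme.ΓSpecIso (CommRingCat.of (IsLocalRing.ResidueField R))).hom.hom
      (topMap t (Coh.toGlobal (Y ↘ Spec (CommRingCat.of R)) r)) = _
    rw [h1, ht]
    change ((Scheme.ΓSpecIso (CommRingCat.of R)).inv ≫
      (Spec.map (CommRingCat.ofHom (IsLocalRing.residue R))).appTop ≫
      (Scheme.ΓSpecIso (CommRingCat.of (IsLocalRing.ResidueField R))).hom).hom r = _
    rw [Scheme.ΓSpecIso_naturality, Iso.inv_hom_id_assoc]
    rfl
  have hinj : Function.Injective ev := by
    rw [injective_iff_map_eq_zero]
    intro a ha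
    by_contra hne
    obtain ⟨b, hb⟩ := hF.mul_inv_cancel hne
    have := congrArg ev hb
    rw [map_mul, ha, zero_mul, map_one] at this
    exact zero_ne_one this
  have hsurj : Function.Surjective (Coh.toGlobal (Y ↘ Spec (CommRingCat.of R))) := by
    intro a
    obtain ⟨r, hr⟩ := IsLocalRing.residue_surjective (R := R) (ev a)
    refine ⟨r, hinj ?_⟩
    rw [hcomp, hr]
  rw [isSimpleModule_iff_toSpanSingleton_surjective]
  refine ⟨?_, fun m hm a => ?_⟩
  · obtain ⟨x, y, hxy⟩ := hF.exists_pair_ne
    exact ⟨⟨x, y, hxy⟩⟩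
  · obtain ⟨b, hb⟩ := hF.mul_inv_cancel hm
    obtain ⟨r, hr⟩ := hsurj (a * b)
    refine ⟨r, ?_⟩
    rw [LinearMap.toSpanSingleton_apply]
    change Coh.toGlobal (Y ↘ Spec (CommRingCat.of R)) r * m = a
    rw [hr, mul_assoc, hF.mul_comm b m, hb, mul_one]

end Length

section Fibre

variable {R : Type u} [CommRing R] [IsDomain R] [IsDiscreteValuationRing R]

/-- A morphism from a reduced scheme to `Spec R` with image the closed point factors over `Spec k`. -/
theorem exists_factor {Y : Scheme.{u}} [IsReduced Y] (q : Y ⟶ Spec (CommRingCat.of R))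
    (h : ∀ y, q y = IsLocalRing.closedPoint R) :
    ∃ q' : Y ⟶ Spec (CommRingCat.of (IsLocalRing.ResidueField R)),
      q' ≫ Spec.map (CommRingCat.ofHom (IsLocalRing.residue R)) = q := by
  have hcl : IsClosedImmersion (Spec.map (CommRingCat.ofHom (IsLocalRing.residue R))) :=
    IsClosedImmersion.spec_of_surjective _ IsLocalRing.residue_surjective
  refine Ega1.ReducedSub.exists_factor_of_range_subset q _ ?_
  rintro _ ⟨y, rfl⟩
  rw [h y]
  refine ⟨IsLocalRing.closedPoint _, ?_⟩
  change (PrimeSpectrum.comap (IsLocalRing.residue R)) (IsLocalRing.closedPoint _) = _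
  ext1
  change Ideal.comap (IsLocalRing.residue R) (IsLocalRing.maximalIdeal (IsLocalRing.ResidueField R)) =
    IsLocalRing.maximalIdeal R
  rw [IsLocalRing.maximalIdeal_eq_bot (R := IsLocalRing.ResidueField R)]
  exact IsLocalRing.ker_residue

variable {C X : Scheme.{u}} {f : C ⟶ Spec (CommRingCat.of (FractionRing R))} {p : X ⟶ Spec (CommRingCat.of R)}

/-- The reduced closed fibre. -/
noncomputable abbrev redFibre (X : Over (Spec (CommRingCat.of R))) : Scheme.{u} :=
  (Models.redFibreIdeal R X).subscheme

instance isReduced_redFibre (X : Over (Spec (CommRingCat.of R))) : IsReduced (redFibre X) :=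
  Ega1.ReducedSub.isReduced_subscheme_vanishingIdeal _

theorem range_redFibre (X : Over (Spec (CommRingCat.of R))) :
    Set.range (Models.redFibreIdeal R X).subschemeι = Models.specialFibreSet R X := by
  rw [Scheme.IdealSheafData.range_subschemeι]
  exact Scheme.IdealSheafData.coe_support_vanishingIdeal _

theorem isField_redFibre (hC : Curve.IsSmoothProperCurve (FractionRing R) C f)
    (hH0 : IsIso f.appTop) (hX : Models.IsRegularProperModel R X p C f) :
    IsField (Coh.Γtop (redFibre (Over.mk p))) := by
  have hp : IsProper p := hX.2.1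
  obtain ⟨q', hq'⟩ := exists_factor ((Models.redFibreIdeal R (Over.mk p)).subschemeι ≫ p) (fun y => by
    have h1 : (Models.redFibreIdeal R (Over.mk p)).subschemeι y ∈ Models.specialFibreSet R (Over.mk p) := by
      rw [← range_redFibre]
      exact ⟨y, rfl⟩
    exact h1)
  have h1 : IsProper (q' ≫ Spec.map (CommRingCat.ofHom (IsLocalRing.residue R))) := by
    rw [hq']
    infer_instance
  have h2 : IsProper q' := IsProper.of_comp q' (Spec.map (CommRingCat.ofHom (IsLocalRing.residue R)))
  have h3 : ConnectedSpace (redFibre (Over.mk p)) := by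
    have h4 := H71.Comps.isConnected_specialFibreSet hC hH0 hX
    rw [← range_redFibre] at h4
    have h5 := (Models.redFibreIdeal R (Over.mk p)).subschemeι.isClosedEmbedding.isInducing
    have h6 : _root_.IsConnected (Set.univ : Set (redFibre (Over.mk p))) := by
      rw [← Set.image_univ] at h4
      refine ⟨?_, ?_⟩
      · obtain ⟨_, y, -, -⟩ := h4.1
        exact ⟨y, trivial⟩
      · exact h5.isPreconnected_image.1 h4.2
    exact connectedSpace_iff_univ.2 h6
  exact ReducedConnField.isField_of_universallyClosed q'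

/-- SSR-P4 (a): with a `K`-rational point, `H^0((X_k)_red, O)` has length one over `R`. -/
theorem lengthH_redFibre_zero (hC : Curve.IsSmoothProperCurve (FractionRing R) C f)
    (hH0 : IsIso f.appTop) (hX : Models.IsRegularProperModel R X p C f)
    (s : Spec (CommRingCat.of (FractionRing R)) ⟶ C) (hs : s ≫ f = 𝟙 _) :
    Models.lengthH R (Over.mk p) (ClSub.quotMod (Models.redFibreIdeal R (Over.mk p))) 0 = 1 := by
  have hp : IsProper p := hX.2.1
  obtain ⟨g, hg⟩ := hX.1.2.2.2
  obtain ⟨σ, hσ, -⟩ := exists_section p (s ≫ g) (by rw [Category.assoc, hg.w, reassoc_of% hs])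
  -- the `k`-point of the reduced fibre
  obtain ⟨t, ht⟩ := Ega1.ReducedSub.exists_factor_of_range_subset
    (Spec.map (CommRingCat.ofHom (IsLocalRing.residue R)) ≫ σ)
    (Models.redFibreIdeal R (Over.mk p)).subschemeι (by
      rw [range_redFibre]
      rintro _ ⟨y, rfl⟩
      change p ((Spec.map (CommRingCat.ofHom (IsLocalRing.residue R)) ≫ σ) y) = IsLocalRing.closedPoint R
      rw [← Scheme.Hom.comp_apply, Category.assoc, hσ, Category.comp_id]
      change (PrimeSpectrum.comap (IsLocalRing.residue R)) y = _
      ext1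
      change Ideal.comap (IsLocalRing.residue R) y.asIdeal = IsLocalRing.maximalIdeal R
      rw [(Ideal.eq_bot_of_prime y.asIdeal : y.asIdeal = ⊥)]
      exact IsLocalRing.ker_residue)
  let _ : (redFibre (Over.mk p)).Over (Spec (CommRingCat.of R)) :=
    ⟨(Models.redFibreIdeal R (Over.mk p)).subschemeι ≫ p⟩
  let _ : X.Over (Spec (CommRingCat.of R)) := ⟨p⟩
  have h1 := length_hh_zero R (redFibre (Over.mk p)) (isField_redFibre hC hH0 hX) t (by
    change t ≫ (Models.redFibreIdeal R (Over.mk p)).subschemeι ≫ p = _
    rw [reassoc_of% ht, hσ, Category.comp_id])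
  have h2 := (hhPushₗ R (Models.redFibreIdeal R (Over.mk p)).subschemeι rfl
    (Coh.structureModule (redFibre (Over.mk p))) 0).length_eq
  unfold Models.lengthH
  have h3 : Module.length R (Coh.HH X (ClSub.quotMod (Models.redFibreIdeal R (Over.mk p))) 0) = 1 := by
    rw [← h1]
    exact h2.symm
  change (Module.length R (Coh.HH X (ClSub.quotMod (Models.redFibreIdeal R (Over.mk p))) 0)).toNat = 1
  rw [h3]
  rfl

end Fibre

end Groth.Agent.Models.H45.RedH0
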